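import Cfsg.Agent.Lib.PGroup.Basic

/-! # Local data for a standard subgroup with centre of even order -/

set_option autoImplicit false

namespace Cfsg.Lib.SF

open Subgroup

variable {G : Type*} [Group G] {A B D N R W : Subgroup G} {a b d g h k l r t u v w x z : G}

theorem nm (p : g ∈ normalizer (A : Set G)) (q : a ∈ A) : g * a * g⁻¹ ∈ A := (mem_normalizer_iff.1 p a).1 q

theorem fp0 [Finite G] (hW : IsPGroup 2 W) (n : W ≤ normalizer (D : Set G)) (m : d ∈ D) (d2 : d * d = 1) (d1 : d ≠ 1) :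
    ∃ e ∈ D, e * e = 1 ∧ e ≠ 1 ∧ ∀ w ∈ W, w * e = e * w := by
  obtain ⟨S, hS⟩ := (hW.comap_subtype (K := normalizer (D : Set G))).exists_le_sylow
  obtain ⟨T, hT⟩ := IsPGroup.exists_le_sylow (P := zpowers (⟨d, le_normalizer m⟩ : normalizer (D : Set G))) (p := 2) (by
    rintro ⟨_, i, rfl⟩
    exact ⟨1, Subtype.ext (Subtype.ext (by simp [pow_two, ← Commute.mul_zpow (.refl d), d2]))⟩)
  obtain ⟨c, rfl⟩ := MulAction.exists_smul_eq (normalizer (D : Set G)) T S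
  obtain ⟨e, ⟨-, e1⟩, e2, e3⟩ := PGroup.exists_mem_centralizer_orderOf_eq (N := (c • T).1.map (Subgroup.subtype _) ⊓ D)
    (((c • T).2.map _).to_inf_left) hW (fun w p => mem_normalizer_fintype fun _ ⟨⟨s, q, e⟩, j⟩ =>
      ⟨⟨⟨w, n p⟩ * s * ⟨w, n p⟩⁻¹, mul_mem (mul_mem (hS p) q) (inv_mem (hS p)), e ▸ rfl⟩, nm (n p) j⟩)
    (ne_bot_iff_exists_ne_one.2 ⟨⟨c * d * c.1⁻¹, ⟨_, smul_mem_pointwise_smul _ (MulAut.conj c) _ (hT (mem_zpowers _)), rfl⟩,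
      nm c.2 m⟩, fun e => d1 (conj_eq_one_iff.1 (congrArg Subtype.val e))⟩)
  exact ⟨e, e1, by rw [← pow_two, ← e3, pow_orderOf_eq_one], fun f => by simp [f] at e3, e2⟩

theorem fp [Finite G] (hW : IsPGroup 2 W) (n : W ≤ normalizer (D : Set G)) (x2 : x * x = 1) (cD : ∀ d ∈ D, d * x = x * d)
    (cW : ∀ w ∈ W, w * x = x * w) (m : d ∈ D) (d2 : d * d = 1 ∨ d * d = x) (d1 : d ≠ 1) (dx : d ≠ x) :
    ∃ e ∈ D, (e * e = 1 ∨ e * e = x) ∧ e ≠ 1 ∧ e ≠ x ∧ ∀ w ∈ W, w * e * w⁻¹ = e ∨ w * e * w⁻¹ = e * x := by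
  let C := centralizer ({x} : Set G)
  let X : Subgroup C := .subgroupOf ⟨⟨⟨{c | c = 1 ∨ c = x}, by rintro a b (p | p) (q | q) <;> simp [p, q, x2]⟩, .inl rfl⟩, by
    rintro a (p | p) <;> simp [p, inv_eq_of_mul_eq_one_left x2]⟩ C
  have : X.Normal := ⟨fun a p c => p.imp (fun p => conj_eq_one_iff.2 p) fun p : a.1 = x =>
    show c.1 * a * c.1⁻¹ = x from p ▸ mul_inv_eq_iff_eq_mul.2 (p ▸ mem_centralizer_singleton_iff.1 c.2)⟩
  have o {c : C} : QuotientGroup.mk' X c = 1 ↔ c.1 = 1 ∨ c.1 = x := QuotientGroup.eq_one_iff c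
  obtain ⟨_, ⟨e, p, rfl⟩, e1, e2, e3⟩ := fp0 ((hW.comap_subtype (K := C)).map (QuotientGroup.mk' X)) (D := (D.subgroupOf C).map (QuotientGroup.mk' X))
    (by
      rintro _ ⟨w, p, rfl⟩
      exact mem_normalizer_fintype (by rintro _ ⟨e, q, rfl⟩; exact ⟨w * e * w⁻¹, nm (A := D) (n p) q, rfl⟩))
    ⟨⟨d, mem_centralizer_singleton_iff.2 (cD d m)⟩, m, rfl⟩ (o.2 d2) (o.not.2 (not_or.2 ⟨d1, dx⟩))
  refine ⟨e, p, o.1 e1, (not_or.1 (o.not.1 e2)).1, (not_or.1 (o.not.1 e2)).2, fun w q => ?_⟩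
  have := e3 _ ⟨⟨w, mem_centralizer_singleton_iff.2 (cW w q)⟩, q, rfl⟩
  rw [← mul_inv_eq_iff_eq_mul, eq_comm, ← inv_mul_eq_one, ← map_inv, ← map_inv, ← map_mul, ← map_mul, ← map_mul, o] at this
  simpa [inv_mul_eq_iff_eq_mul] using this

theorem nc (p : g ∈ normalizer (A : Set G)) (q : k ∈ centralizer (A : Set G)) : g * k * g⁻¹ ∈ centralizer (A : Set G) := fun a m => by
  have := q _ ((mem_normalizer_iff''.1 p a).1 m)
  rw [← mul_right_inj g, ← mul_left_inj g⁻¹] at this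
  simpa [mul_assoc] using this

theorem pz (p : a ^ 4 = 1) : IsPGroup 2 (zpowers a) := by
  rintro ⟨_, i, rfl⟩
  exact ⟨2, Subtype.ext (by rw [coe_pow, ← zpow_natCast, ← zpow_mul, mul_comm, zpow_mul, zpow_natCast]; simp [p])⟩

theorem mem_of_odd [Finite G] (o : Odd (orderOf g)) {n : ℕ} (p : g ^ 2 ^ n ∈ N) : g ∈ N :=
  zpowers_le.2 p (mem_zpowers_pow_iff.2 (Nat.Coprime.pow_left n (Nat.coprime_two_left.2 o)))

/-- the elements that act on `A` like elements of `D` -/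
def MC (A D : Subgroup G) : Subgroup G where
  carrier := {g | ∃ d ∈ D, d ∈ normalizer (A : Set G) ∧ d⁻¹ * g ∈ centralizer (A : Set G)}
  one_mem' := ⟨1, one_mem _, one_mem _, by simp⟩
  mul_mem' := fun ⟨d, a, b, c⟩ ⟨e, a', b', c'⟩ =>
    ⟨d * e, mul_mem a a', mul_mem b b', by simpa [mul_assoc] using mul_mem (nc (inv_mem b') c) c'⟩
  inv_mem' := fun ⟨d, a, b, c⟩ => ⟨d⁻¹, inv_mem a, inv_mem b, by simpa [mul_assoc] using nc b (inv_mem c)⟩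

theorem MC.le : MC A D ≤ normalizer (A : Set G) := fun g ⟨d, _, b, c⟩ => by
  simpa using mul_mem b (centralizer_le_normalizer _ c)

theorem MC.cen (p : k ∈ centralizer (A : Set G)) : k ∈ MC A D := ⟨1, one_mem _, one_mem _, by simpa⟩

theorem MC.self (p : a ∈ A) : a ∈ MC A A := ⟨a, p, le_normalizer p, by simp⟩

theorem MC.conj (p : h ∈ normalizer (A : Set G)) (q : ∀ d ∈ D, h * d * h⁻¹ ∈ D) (m : g ∈ MC A D) : h * g * h⁻¹ ∈ MC A D :=
  let ⟨d, a, b, c⟩ := m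
  ⟨_, q d a, mul_mem (mul_mem p b) (inv_mem p), by simpa [mul_assoc] using nc p c⟩

theorem MC.comm (q : ∀ a ∈ D, ∀ b ∈ D, a * b = b * a) (m : g ∈ MC A D) (n : h ∈ MC A D) :
    (h * g)⁻¹ * (g * h) ∈ centralizer (A : Set G) := by
  obtain ⟨d, a, b, c⟩ := m
  obtain ⟨e, a', b', c'⟩ := n
  have := mul_mem (inv_mem (mul_mem (nc (inv_mem b) c') c)) (mul_mem (nc (inv_mem b') c) c')
  convert this using 1
  calc _ = g⁻¹ * h⁻¹ * (e * d) * (d * e)⁻¹ * g * h := by rw [q e a' d a]; group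
    _ = _ := by group

theorem MC.zc (m : g ∈ MC A A) (p : v ∈ A) (q : v ∈ centralizer (A : Set G)) : g * v = v * g := by
  obtain ⟨d, a, -, c⟩ := m
  have := c v p
  rw [← mul_assoc, (Commute.inv_left (q d a)).eq.symm, mul_assoc, mul_assoc, mul_right_inj] at this
  exact this.symm

/-- a long root involution with its extraspecial group -/
structure RT (A R : Subgroup G) (z : G) : Prop where
  le : R ≤ A
  p4 : ∀ r ∈ R, r ^ 4 = 1
  z2 : z * z = 1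
  zc : z ∉ centralizer (A : Set G)
  cm : ∀ a ∈ R, ∀ b ∈ R, a * b * a⁻¹ = b ∨ a * b * a⁻¹ = b * z
  qk : ∃ i ∈ R, ∃ j ∈ R, i * i = z ∧ j * j = z ∧ i * j * (i * j) = z
  nr : ∀ g ∈ normalizer (A : Set G), g * z = z * g → ∀ r ∈ R, g * r * g⁻¹ ∈ R
  e3 : ∀ d ∈ normalizer (A : Set G), ∀ l ∈ R, d * z = z * d → (d * d = 1 ∨ l * (d * d) ∈ centralizer (A : Set G)) →
    (∀ w ∈ R, w * l = l * w → d * w * d⁻¹ * w⁻¹ = 1 ∨ l * (d * w * d⁻¹ * w⁻¹) ∈ centralizer (A : Set G)) →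
      ∃ r ∈ R, r⁻¹ * d ∈ centralizer (A : Set G)
  e4 : ∀ g ∈ MC A A, ∀ l ∈ R, (∀ w ∈ R, w * l = l * w → g * w = w * g) → g ^ 2 ^ 4 ∈ centralizer (A : Set G)
  cen : ∀ r ∈ R, ∀ l ∈ R, (∀ w ∈ R, w * l = l * w → w * r = r * w) → (r ∈ centralizer (A : Set G) ∨
    z * r ∈ centralizer (A : Set G)) ∨ l * r ∈ centralizer (A : Set G) ∨ z * (l * r) ∈ centralizer (A : Set G)
  irr : ∀ N : Subgroup G, centralizer (A : Set G) ≤ N → z ∈ N → (∀ j ∈ A, j * z = z * j → ∀ n ∈ N, j * n * j⁻¹ ∈ N) →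
    ∀ r ∈ R, r ∈ N → r ∉ centralizer (A : Set G) → z * r ∉ centralizer (A : Set G) → R ≤ N
  root : ∃ e ∈ R, ∃ q ∈ A, e * e = 1 ∧ e ∉ centralizer (A : Set G) ∧ z * e ∉ centralizer (A : Set G) ∧ q * e = e * q ∧
    q * z * q⁻¹ = z * e

/-- a central involution of `A` -/
structure Zi (A : Subgroup G) (v : G) : Prop where
  m : v ∈ A
  c : v ∈ centralizer (A : Set G)
  v2 : v * v = 1
  v1 : v ≠ 1

/-- what is used about a cover of the twisted group -/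
structure LA (A : Subgroup G) : Prop where
  sq : ∀ a ∈ A, a * a ∈ centralizer (A : Set G) → (a * a) ^ 3 = 1
  idx : ∀ v, Zi A v → ∀ g ∈ normalizer (A : Set G), ∀ h ∈ normalizer (A : Set G), g * v = v * g → h * v = v * h →
    g ∉ MC A A → h ∉ MC A A → g * h ∈ MC A A
  out : ∀ x ∈ normalizer (A : Set G), x * x = 1 → x ∉ MC A A → ∀ t, Zi A t → x * t = t * x → ∀ I : Subgroup G, t ∉ I →
    (∀ a ∈ A, ∀ b ∈ A, a * x = x * a → b * x = x * b → a ∉ I → b ∉ I → a * b ∈ I) →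
      ∃ u ∈ A, u ∈ I ∧ u ≠ 1 ∧ u * u = 1 ∧ u * x = x * u ∧ ∃ r, r * x * r⁻¹ = u * x
  inn : ∀ x ∈ MC A A, x * x = 1 → ∃ z R, RT A R z ∧ ∃ l ∈ R, l * l = 1 ∧ l * x ∈ centralizer (A : Set G)

namespace RT

variable (T : RT A R z)
include T

theorem z1 : z ≠ 1 := fun e => T.zc (e ▸ one_mem _)

theorem mz : z ∈ R := let ⟨_, a, _, _, e, _⟩ := T.qk; e ▸ mul_mem a a

theorem cz (m : a ∈ R) : a * z = z * a :=
  mul_inv_eq_iff_eq_mul.1 ((T.cm a m z T.mz).resolve_right fun e => T.z1 (conj_eq_one_iff.1 (e.trans T.z2)))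

theorem sqz (m : l ∈ R) : ∃ i ∈ R, i * l = l * i ∧ i * i = z := by
  obtain ⟨i, a, j, b, e1, e2, e3⟩ := T.qk
  rcases T.cm i a l m with p | p
  · exact ⟨i, a, mul_inv_eq_iff_eq_mul.1 p, e1⟩
  rcases T.cm j b l m with q | q
  · exact ⟨j, b, mul_inv_eq_iff_eq_mul.1 q, e2⟩
  refine ⟨i * j, mul_mem a b, mul_inv_eq_iff_eq_mul.1 ?_, e3⟩
  calc _ = i * (j * l * j⁻¹) * i⁻¹ := by group
    _ = _ := by rw [q, ← conj_mul, p, T.cz a, mul_inv_cancel_right, mul_assoc, T.z2, mul_one]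

theorem mv (m : l ∈ R) (p : l ∉ centralizer (A : Set G)) (q : z * l ∉ centralizer (A : Set G)) : ∃ w ∈ R, w * l * w⁻¹ = l * z := by
  by_contra! k
  simpa [p, q] using T.cen l m 1 (one_mem _) fun w n _ => mul_inv_eq_iff_eq_mul.1 ((T.cm w n l m).resolve_right (k w n))

end RT

end Cfsg.Lib.SF
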