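import Cfsg.Agent.Lib.SF.Loc

/-! # Commuting central involutions of conjugates of a standard subgroup -/

set_option autoImplicit false

namespace Cfsg.Lib.SF

open Subgroup

variable {G : Type*} [Group G] {A B R : Subgroup G} {a d g h k l s t u v w x z : G} {F : Subgroup G → Prop}

local notation "𝐂 " A:max => centralizer ((A : Subgroup G) : Set G)
local notation "𝐍 " A:max => normalizer ((A : Subgroup G) : Set G)

/-- the conjugate subgroup -/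
def cj (g : G) (A : Subgroup G) : Subgroup G := A.comap (MulAut.conj g).symm.toMonoidHom

theorem mem_cj : a ∈ cj g A ↔ g⁻¹ * a * g ∈ A := .rfl

theorem cen_cj : k ∈ 𝐂 (cj g A) ↔ g⁻¹ * k * g ∈ 𝐂 A :=
  ⟨fun p a m => by
    have := p (g * a * g⁻¹) (by simpa [mem_cj, mul_assoc] using m)
    rw [← mul_right_inj g⁻¹, ← mul_left_inj g] at this
    simpa [mul_assoc] using this, fun p a m => by
      have := p (g⁻¹ * a * g) m
      simpa [mul_assoc] using congrArg (· * g⁻¹) this⟩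

theorem Zi.cj (p : Zi A v) (g : G) : Zi (cj g A) (g * v * g⁻¹) :=
  ⟨by simpa [mem_cj, mul_assoc] using p.m, by simpa [cen_cj, mul_assoc] using p.c, by simp [p.v2], conj_eq_one_iff.not.2 p.v1⟩

/-- `x` generates a Sylow `2`-subgroup of `D` -/
def SK (D : Subgroup G) (x : G) : Prop := ∀ d ∈ D, d * d = 1 ∨ d * d = x → d = 1 ∨ d = x

theorem SK.out (S : SK A x) (m : d ∈ A) (e : d * d = 1 ∨ d * d = x) : d = 1 ∨ d = x := S d m e

/-- a conjugacy class of subgroups with tightly embedded centralizers -/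
structure Fam (F : Subgroup G → Prop) : Prop where
  la : ∀ {A}, F A → LA A
  cj : ∀ {A} g, F A → F (cj g A)
  tr : ∀ {A B}, F A → F B → ∃ g, A = SF.cj g B
  ti : ∀ {A B k}, F A → F B → k * k = 1 → k ≠ 1 → k ∈ 𝐂 A → k ∈ 𝐂 B → A = B

/-- a central involution of `B` that induces an inner automorphism of `A` -/
structure IP (F : Subgroup G → Prop) (A B : Subgroup G) (x : G) : Prop where
  a : F A
  b : F B
  ne : A ≠ B
  z : Zi B x
  i : x ∈ MC A A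

theorem sq_of (p : l * l = 1) (m : l ∈ A) (c : l * x ∈ 𝐂 A) (q : x * x = 1) : l * x = x * l ∧ l * x * (l * x) = 1 := by
  have : l * x = x * l := by
    have := c l m
    rwa [mul_assoc, mul_right_inj] at this
  exact ⟨this, by rw [mul_assoc, ← mul_assoc x, ← this, mul_assoc, q, mul_one, p]⟩

theorem comm_iff (m : w ∈ A) (c : l * x ∈ 𝐂 A) (p : l * l = 1) : w * l = l * w ↔ w * x = x * w := by
  have := c w m
  refine ⟨fun e => by rwa [← mul_assoc, e, mul_assoc, mul_assoc, mul_right_inj] at this, fun e => ?_⟩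
  rwa [mul_assoc l, ← e, ← mul_assoc, ← mul_assoc, mul_left_inj] at this

namespace Fam

variable (H : Fam F)
include H

theorem cn (a : F A) (c : k ∈ 𝐂 A) (k2 : k * k = 1) (k1 : k ≠ 1) (e : g * k = k * g) : g ∈ 𝐍 A :=
  mem_normalizer_iff''.2 fun _ => (SetLike.ext_iff.1 (H.ti a (H.cj g a) k2 k1 c (cen_cj.2 (by rwa [mul_assoc, ← e, inv_mul_cancel_left]))) _)

theorem zn (a : F A) (p : Zi A v) (e : g * v = v * g) : g ∈ 𝐍 A := H.cn a p.c p.v2 p.v1 e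

theorem sq_in (a : F A) (p : Zi A v) (e : g * v = v * g) : g * g ∈ MC A A :=
  (em _).elim (fun q => mul_mem q q) fun q => (H.la a).idx v p g (H.zn a p e) g (H.zn a p e) e e q q

theorem ex (a : F A) (b : F B) (p : Zi B v) : ∃ t, Zi A t := let ⟨g, e⟩ := H.tr a b; ⟨_, e ▸ p.cj g⟩

theorem _root_.Cfsg.Lib.SF.IP.nc (P : IP F A B x) (a : d ∈ 𝐂 A) (b : d ∈ 𝐂 B) (e : d * d = 1 ∨ d * d = x) : d = 1 := by_contra fun n =>
  P.ne (e.elim (fun e => H.ti P.a P.b e n a b) fun e => H.ti P.a P.b P.z.v2 P.z.v1 (e ▸ mul_mem a a) P.z.c)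

variable [Finite G]

theorem odd (a : F A) (b : F B) (n : A ≠ B) (p : d ∈ 𝐂 A) (q : d ∈ 𝐂 B) : Odd (orderOf d) := Nat.not_even_iff_odd.1 fun ⟨m, e⟩ =>
  n (H.ti a b (k := d ^ m) (by rw [← pow_add, ← e, pow_orderOf_eq_one]) (pow_ne_one_of_lt_orderOf (by have := orderOf_pos d; omega)
    (by have := orderOf_pos d; omega)) (pow_mem p _) (pow_mem q _))

theorem exists_ip (a : F A) (b : F B) (n : A ≠ B) (p : Zi A v) (c : u ∈ 𝐂 B) (u2 : u * u = 1) (u1 : u ≠ 1) (m : u ∈ 𝐍 A) :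
    ∃ A B x, IP F A B x := by
  have k {A : Subgroup G} {v u : G} (p : Zi A v) (u2 : u * u = 1) (m : u ∈ 𝐍 A) : ∃ t, Zi A t ∧ u * t = t * u :=
    let ⟨t, a, b, c, d⟩ := fp0 (D := A ⊓ 𝐂 A) (pz (a := u) (by rw [show 4 = 2 * 2 from rfl, pow_mul, pow_two u, u2, one_pow]))
      (zpowers_le.2 (mem_normalizer_fintype fun _ q => ⟨nm m q.1, nc m q.2⟩)) ⟨p.m, p.c⟩ p.v2 p.v1
    ⟨t, ⟨a.1, a.2, b, c⟩, d u (mem_zpowers u)⟩
  obtain ⟨t, T, e⟩ := k p u2 m
  obtain ⟨_, q⟩ := H.ex b a p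
  obtain ⟨x, X, f⟩ := k q T.v2 (H.cn b c u2 u1 e.symm)
  by_cases i : x ∈ MC A A
  · exact ⟨A, B, x, a, b, n, X, i⟩
  by_cases j : t ∈ MC B B
  · exact ⟨B, A, t, b, a, n.symm, T, j⟩
  obtain ⟨u, u0, u3, u1, u2, u4, r, u5⟩ := (H.la a).out x (H.zn a T f.symm) X.v2 i t T f.symm _ j fun c _ d _ p q =>
    (H.la b).idx x X c (H.zn b X p) d (H.zn b X q) p q
  have Y := u5 ▸ X.cj r
  by_cases e : B = SF.cj r B
  · rw [← e] at Y
    exact ⟨A, B, u, a, b, n, ⟨(mul_mem_cancel_right X.m).1 Y.m, (mul_mem_cancel_right X.c).1 Y.c, u2, u1⟩, MC.self u0⟩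
  · exact ⟨B, _, _, b, H.cj r b, e, Y, mul_mem u3 (MC.self X.m)⟩

theorem common (P : IP F A B x) (T : RT A R z) (m : l ∈ R) (l2 : l * l = 1) (c : l * x ∈ 𝐂 A) (n : ¬ SK (𝐂 B ⊓ 𝐍 A) x) :
    ∃ d ∈ 𝐂 B, d ∈ 𝐍 A ∧ (d * d = 1 ∨ d * d = x) ∧ d ∉ 𝐂 A ∧ l * d ∉ 𝐂 A ∧
      (∀ w ∈ R, w * l = l * w → w * d * w⁻¹ = d ∨ w * d * w⁻¹ = d * x) ∧ ∃ r ∈ R, r⁻¹ * d ∈ 𝐂 A := by
  simp only [SK, not_forall, not_or] at n
  obtain ⟨d, d0, d2, d1, dx⟩ := n
  obtain ⟨d, ⟨d0, d3⟩, d2, d1, dx, d4⟩ := fp (W := R ⊓ centralizer {x}) (D := 𝐂 B ⊓ 𝐍 A) (fun w => ⟨2, Subtype.ext (T.p4 _ w.2.1)⟩)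
    (fun w p => mem_normalizer_fintype fun _ q => mem_inf.2 ⟨nc (H.zn P.b P.z (mem_centralizer_singleton_iff.1 p.2)) q.1,
      mul_mem (mul_mem (le_normalizer (T.le p.1)) q.2) (inv_mem (le_normalizer (T.le p.1)))⟩) P.z.v2
    (fun _ q => (q.1 x P.z.m).symm) (fun _ q => mem_centralizer_singleton_iff.1 q.2) d0 d2 d1 dx
  have d5 (w) (p : w ∈ R) (e : w * l = l * w) := d4 w ⟨p, mem_centralizer_singleton_iff.2 ((comm_iff (T.le p) c l2).1 e)⟩
  have cx := d0 x P.z.m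
  refine ⟨d, d0, d3, d2, fun q => d1 (P.nc H q d0 d2), fun q => dx ?_, d5, T.e3 d d3 l m ?_ (d2.imp_right fun e : d * d = x => e ▸ c) fun w p e => ?_⟩
  · refine (inv_mul_eq_one.1 (P.nc H (by simpa [mul_assoc] using mul_mem (inv_mem c) q) (mul_mem (inv_mem P.z.c) d0) ?_)).symm
    rwa [inv_eq_of_mul_eq_one_left P.z.v2, mul_assoc, ← mul_assoc d, ← cx, ← mul_assoc, ← mul_assoc, P.z.v2, one_mul]
  · obtain ⟨i, p, e, rfl⟩ := T.sqz m
    have f := (comm_iff (T.le p) c l2).1 e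
    refine (mul_inv_eq_iff_eq_mul.1 ?_).symm
    calc _ = i * (i * d * i⁻¹) * i⁻¹ := by group
      _ = _ := by
        rcases d5 i p e with q | q <;> rw [q]
        · exact q
        · rw [← conj_mul, q, f, mul_inv_cancel_right, mul_assoc, P.z.v2, mul_one]
  · rw [show d * w * d⁻¹ * w⁻¹ = d * (w * d * w⁻¹)⁻¹ by group]
    rcases d5 w p e with q | q <;> rw [q]
    · simp
    · exact .inr (by rwa [mul_inv_rev, inv_eq_of_mul_eq_one_left P.z.v2, ← mul_assoc d, ← cx, mul_inv_cancel_right])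

theorem typeA (P : IP F A B x) (T : RT A R z) (c : z * x ∈ 𝐂 A) : SK (𝐂 B ⊓ 𝐍 A) x := by_contra fun n => by
  obtain ⟨d, d0, d3, -, d1, dz, -, r, r0, r1⟩ := H.common P T T.mz T.z2 c n
  have xn := MC.le P.i
  have zx : x⁻¹ * z ∈ 𝐂 A := by simpa [inv_eq_of_mul_eq_one_left T.z2] using inv_mem c
  have jn {j} (m : j ∈ A) (e : j * z = z * j) : j ∈ 𝐍 B := H.zn P.b P.z ((comm_iff m c T.z2).1 e)
  obtain ⟨e, e0, q, q0, e2, e1, ez, qe, qz⟩ := T.root
  obtain ⟨y, y0, y3, y1⟩ := T.irr (MC A (𝐂 B)) (fun _ => MC.cen) ⟨x, P.z.c, xn, zx⟩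
    (fun j m e n => MC.conj (le_normalizer m) fun _ => nc (jn m e)) r r0 ⟨d, d0, d3, by simpa using inv_mem r1⟩
    (fun p => d1 (by simpa using mul_mem p r1)) (fun p => dz (by simpa [mul_assoc] using mul_mem p r1)) e0
  obtain ⟨k, k0, rfl⟩ : ∃ k ∈ 𝐂 A, y = e * k := ⟨_, inv_mem y1, by simp [← mul_assoc, e2]⟩
  have ek : Commute e k := k0 e (T.le e0)
  have kk : (e * k) ^ 2 = k ^ 2 := by rw [ek.mul_pow, pow_two e, e2, one_mul]
  obtain ⟨m, o⟩ := H.odd P.a P.b P.ne (pow_mem k0 2) (kk ▸ pow_mem y0 2)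
  have y : (e * k) ^ (2 * m + 1) = e * k ^ (2 * m + 1) := by rw [ek.mul_pow, pow_succ e, pow_mul, pow_two e, e2, one_pow, one_mul]
  have qn := H.cn P.b (g := q) (pow_mem y0 (2 * m + 1)) (by rw [← pow_two, ← pow_mul, mul_comm, pow_mul, kk, ← o, pow_orderOf_eq_one])
    (fun f => e1 (by rw [y, mul_eq_one_iff_eq_inv] at f; exact f ▸ inv_mem (pow_mem k0 _)))
    (y ▸ Commute.mul_right qe (Commute.pow_right (k0 q q0) _))
  have f : q * x * q⁻¹ = x * e := by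
    calc _ = q * z * q⁻¹ * (q * (z * x) * q⁻¹) := by rw [conj_mul, ← mul_assoc z, T.z2, one_mul]
      _ = _ := by rw [qz, c q q0, mul_inv_cancel_right, mul_assoc, c e (T.le e0), ← mul_assoc, ← mul_assoc, T.z2, one_mul]
  have l := T.irr (MC A (B ⊓ 𝐂 B)) (fun _ => MC.cen) ⟨x, ⟨P.z.m, P.z.c⟩, xn, zx⟩
    (fun j m e n => MC.conj (le_normalizer m) fun _ p => ⟨nm (jn m e) p.1, nc (jn m e) p.2⟩) e e0
    ⟨e, ⟨(mul_mem_cancel_left P.z.m).1 (f ▸ nm qn P.z.m), (mul_mem_cancel_left P.z.c).1 (f ▸ nc qn P.z.c)⟩,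
      le_normalizer (T.le e0), by simp⟩ e1 ez
  obtain ⟨i, a, j, b, e1, e2, e3⟩ := T.qk
  refine T.zc ?_
  convert MC.comm (D := B ⊓ 𝐂 B) (fun _ p _ q => q.2 _ p.1) (l a) (l b) using 1
  rw [eq_inv_mul_iff_mul_eq, ← mul_right_inj i, ← mul_left_inj j]
  calc _ = i * j * (i * j) * z := by rw [mul_assoc, mul_assoc, ← T.cz b]; group
    _ = i * i * (j * j) := by rw [e1, e2, e3]
    _ = _ := by group

theorem small (P : IP F A B x) : ∃ x, IP F A B x ∧ SK (𝐂 B ⊓ 𝐍 A) x := by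
  obtain ⟨z, R, T, l, m, l2, c⟩ := (H.la P.a).inn x P.i P.z.v2
  by_cases a : z * x ∈ 𝐂 A
  · exact ⟨x, P, H.typeA P T a⟩
  by_cases n : SK (𝐂 B ⊓ 𝐍 A) x
  · exact ⟨x, P, n⟩
  obtain ⟨d, d0, d3, d2, d1, dl, d4, r, r0, r1⟩ := H.common P T m l2 c n
  have cx := d0 x P.z.m
  have zx : z * x = x * z := (comm_iff (T.le T.mz) c l2).1 (T.cz m).symm
  have k {y} (y0 : y ∈ 𝐂 B) (y2 : y * y = 1 ∨ y * y = x) (p : z * y ∈ 𝐂 A) : ∃ x, IP F A B x ∧ SK (𝐂 B ⊓ 𝐍 A) x := by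
    have e := (comm_iff (T.le T.mz) p T.z2).1 rfl
    have s : z * y * (z * y) = y * y := by rw [mul_assoc, ← mul_assoc y, ← e, ← mul_assoc, ← mul_assoc, T.z2, one_mul]
    obtain ⟨w, w0, w1⟩ := T.mv m (fun q => P.z.v1 (P.nc H (by simpa using mul_mem (inv_mem q) c) P.z.c (.inl P.z.v2)))
      fun q => a (by simpa [mul_assoc, ← mul_assoc l, l2] using mul_mem q c)
    have wn := H.cn P.b y0 (y2.resolve_right fun f => P.z.v1 (P.nc H (f ▸ s ▸ mul_mem p p) P.z.c (.inl P.z.v2)))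
      (fun f => T.zc (by simpa [f] using p)) ((comm_iff (T.le w0) p T.z2).1 (T.cz w0))
    have f : w * x * w⁻¹ = x * z := by
      calc _ = w * l * w⁻¹ * (w * (l * x) * w⁻¹) := by rw [conj_mul, ← mul_assoc l, l2, one_mul]
        _ = _ := by rw [w1, c w (T.le w0), mul_inv_cancel_right, T.cz m, mul_assoc, ← mul_assoc l, l2, one_mul, zx]
    have P' : IP F A B z := ⟨P.a, P.b, P.ne, ⟨(mul_mem_cancel_left P.z.m).1 (f ▸ nm wn P.z.m),
      (mul_mem_cancel_left P.z.c).1 (f ▸ nc wn P.z.c), T.z2, T.z1⟩, MC.self (T.le T.mz)⟩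
    exact ⟨z, P', H.typeA P' T (T.z2 ▸ one_mem _)⟩
  have h {w} (p : w ∈ R) (e : w * l = l * w) : w * r = r * w := mul_inv_eq_iff_eq_mul.1 ((T.cm w p r r0).resolve_right fun q => by
    have f : w * d * w⁻¹ = z * d := by
      calc _ = w * r * w⁻¹ * (w * (r⁻¹ * d) * w⁻¹) := by rw [conj_mul, mul_inv_cancel_left]
        _ = _ := by rw [q, r1 w (T.le p), mul_inv_cancel_right, T.cz r0, mul_assoc, mul_inv_cancel_left]
    rcases d4 w p e with j | j <;> rw [f] at j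
    · exact T.z1 (by simpa using j)
    · exact a (by rw [← cx, mul_left_inj] at j; rw [j, P.z.v2]; exact one_mem _))
  rcases T.cen r r0 l m fun w => h with (q | q) | q | q
  · exact (d1 (by simpa using mul_mem q r1)).elim
  · exact k d0 d2 (by simpa [mul_assoc] using mul_mem q r1)
  · exact (dl (by simpa [mul_assoc] using mul_mem q r1)).elim
  · refine k (mul_mem P.z.c d0) (by rwa [mul_assoc, ← mul_assoc d, ← cx, ← mul_assoc, ← mul_assoc, P.z.v2, one_mul]) ?_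
    have := mul_mem (inv_mem c) (mul_mem q r1)
    rw [← mul_assoc z, ← T.cz m, inv_eq_of_mul_eq_one_left (sq_of l2 (T.le m) c P.z.v2).2, (sq_of l2 (T.le m) c P.z.v2).1] at this
    convert this using 1
    calc _ = x * (l * l) * z * d := by rw [l2, mul_one, ← zx, mul_assoc]
      _ = _ := by group

theorem sk (P : IP F A B x) (S : SK (𝐂 B ⊓ 𝐍 A) x) : SK (𝐂 B) x := fun d d0 d2 => by_contra fun n => by
  obtain ⟨g, rfl⟩ := H.tr P.a P.b
  have T := P.z.cj g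
  have dc := cen_cj.2 (show g⁻¹ * (g * d * g⁻¹) * g ∈ 𝐂 B by simpa [mul_assoc])
  generalize ht : g * x * g⁻¹ = t at T
  have xt := MC.zc P.i T.m T.c
  have key {s} (s0 : s ∈ 𝐂 (SF.cj g B)) (sx : s * x = x * s) (s2 : s * s = 1 ∨ s * s = t) : s = 1 ∨ s = t := by
    have st := s0 t T.m
    have cx : zpowers s ⊔ zpowers t ≤ centralizer {x} :=
      sup_le (zpowers_le.2 (mem_centralizer_singleton_iff.2 sx)) (zpowers_le.2 (mem_centralizer_singleton_iff.2 xt.symm))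
    have p4 {a : G} (e : a * a = 1 ∨ a * a = t) : a ^ 4 = 1 := by
      rw [show 4 = 2 * 2 from rfl, pow_mul, pow_two a, pow_two]; rcases e with e | e <;> simp [e, T.v2]
    obtain ⟨e, e0, e2, e1, ex, e3⟩ := fp (W := zpowers s ⊔ zpowers t) (D := 𝐂 B) ((pz (p4 s2)).to_sup_of_normal_right' (pz (p4 (.inl T.v2)))
      (zpowers_le.2 (centralizer_le_normalizer _ (by rintro _ ⟨i, rfl⟩; exact Commute.zpow_left st i))))
      (fun w p => mem_normalizer_fintype fun _ q => nc (H.zn P.b P.z (mem_centralizer_singleton_iff.1 (cx p))) q) P.z.v2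
      (fun _ q => (q x P.z.m).symm) (fun _ q => mem_centralizer_singleton_iff.1 (cx q)) d0 d2 (not_or.1 n).1 (not_or.1 n).2
    have ms := mem_sup_left (T := zpowers t) (mem_zpowers s)
    have mt := mem_sup_right (S := zpowers s) (mem_zpowers t)
    have f {u} (m : u ∈ zpowers s ⊔ zpowers t) (c : u ∈ 𝐂 (SF.cj g B)) (u2 : u * u = 1) (u1 : u ≠ 1) : u * e * u⁻¹ = e * x :=
      (e3 u m).resolve_left fun q => (S e ⟨e0, H.cn P.a c u2 u1 (mul_inv_eq_iff_eq_mul.1 q).symm⟩ e2).elim e1 ex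
    have ft := f mt T.c T.v2 T.v1
    have two {a b : G} (p : a * e * a⁻¹ = e * x) (q : b * e * b⁻¹ = e * x) (c : a * x = x * a) : a * b * e * (a * b)⁻¹ = e := by
      calc _ = a * (b * e * b⁻¹) * a⁻¹ := by group
        _ = _ := by rw [q, ← conj_mul, p, c, mul_inv_cancel_right, mul_assoc, P.z.v2, mul_one]
    by_contra! k
    refine P.z.v1 (left_eq_mul.1 (?_ : e = e * x))
    rcases s2 with s2 | s2
    · rw [← f (mul_mem ms mt) (mul_mem s0 T.c) (by rw [mul_assoc, ← mul_assoc t, st, ← mul_assoc, ← mul_assoc, s2, one_mul, T.v2])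
        fun q => k.2 (mul_right_cancel (q.trans T.v2.symm)), two (f ms s0 s2 k.1) ft sx]
    · rw [← ft, ← s2]
      rcases e3 s ms with q | q
      · calc _ = s * (s * e * s⁻¹) * s⁻¹ := by rw [q, q]
          _ = _ := by group
      · exact (two q q sx).symm
  obtain ⟨z, R, T', l, m, l2, c⟩ := (H.la P.a).inn x P.i P.z.v2
  have l3 := sq_of l2 (T'.le m) c P.z.v2
  have xa : x ∈ SF.cj g B := (mul_mem_cancel_left (T'.le m)).1
    ((key c (by rw [mul_assoc, ← mul_assoc x, ← l3.1, mul_assoc]) (.inl l3.2)).elim (· ▸ one_mem _) (· ▸ T.m))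
  subst ht
  simpa [n] using key dc (dc x xa).symm (by simpa using d2)

section
variable (S : ∀ (A : Subgroup G) (t : G), F A → Zi A t → SK (centralizer A) t)
include S

omit [Finite G] in
theorem inA (a : F A) (T : Zi A t) (m : u ∈ MC A A) (u2 : u * u = 1) : u ∈ A := by
  obtain ⟨z, R, T', l, m, l2, c⟩ := (H.la a).inn u m u2
  exact (mul_mem_cancel_left (T'.le m)).1 ((S A t a T _ c (.inl (sq_of l2 (T'.le m) c u2).2)).elim (· ▸ one_mem _) (· ▸ T.m))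

omit [Finite G] in
theorem symm (P : IP F A B x) : ∃ A B t x, F A ∧ F B ∧ A ≠ B ∧ Zi A t ∧ Zi B x ∧ x ∈ A ∧ t ∈ B := by
  obtain ⟨t, T⟩ := H.ex P.a P.b P.z
  have xa := H.inA S P.a T P.i P.z.v2
  obtain ⟨z, R, T', l, m, l2, c⟩ := (H.la P.a).inn x P.i P.z.v2
  obtain ⟨i, i0, i1, i2⟩ := T'.sqz m
  have zb := H.inA S P.b P.z (i2 ▸ H.sq_in P.b P.z ((comm_iff (T'.le i0) c l2).1 i1)) T'.z2
  have zx : z * x = x * z := (comm_iff (T'.le T'.mz) c l2).1 (T'.cz m).symm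
  by_cases a : z * l ∈ 𝐂 A
  · replace a : z * x ∈ 𝐂 A := by simpa [mul_assoc, ← mul_assoc l, l2] using mul_mem a c
    rcases (S A t P.a T).out a (.inl (sq_of T'.z2 (T'.le T'.mz) a P.z.v2).2) with e | e
    · obtain rfl : z = x := mul_right_cancel (e.trans P.z.v2.symm)
      obtain ⟨i, i0, j, j0, e1, e2, e3⟩ := T'.qk
      obtain ⟨i, ⟨a, a0, -, a1⟩, i2⟩ : ∃ i ∈ MC B B, i * i = z := by
        by_contra! k
        exact k _ ((H.la P.b).idx z P.z i (H.zn P.b P.z (T'.cz i0)) j (H.zn P.b P.z (T'.cz j0)) (T'.cz i0) (T'.cz j0)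
          (k i · e1) (k j · e2)) e3
      obtain ⟨k, rfl⟩ : ∃ k, i = a * k := ⟨a⁻¹ * i, by simp⟩
      rw [inv_mul_cancel_left] at a1
      have ak : Commute a k := a1 a a0
      rw [← pow_two, ak.mul_pow, pow_two, pow_two] at i2
      have := (H.la P.b).sq a a0 ((mul_mem_cancel_right (mul_mem a1 a1)).1 (i2 ▸ P.z.c))
      have k6 : k ^ 3 * k ^ 3 = z := by
        calc _ = (a * a * (k * k)) ^ 3 := by rw [((ak.mul_left ak).mul_right (ak.mul_left ak)).mul_pow, this, one_mul, (Commute.refl k).mul_pow]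
          _ = _ := by rw [i2, pow_succ, pow_two, T'.z2, one_mul]
      rcases (S B z P.b P.z).out (pow_mem a1 3) (.inr k6) with f | f <;> rw [f] at k6
      · exact (T'.z1 (by simpa using k6.symm)).elim
      · exact (T'.z1 (k6.symm.trans T'.z2)).elim
    · exact ⟨A, B, t, x, P.a, P.b, P.ne, T, P.z, xa, e ▸ mul_mem zb P.z.m⟩
  · obtain ⟨w, w0, w1⟩ := T'.mv m (fun q => P.z.v1 (P.nc H (by simpa using mul_mem (inv_mem q) c) P.z.c (.inl P.z.v2))) a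
    have f : w * x * w⁻¹ = x * z := by
      calc _ = w * l * w⁻¹ * (w * (l * x) * w⁻¹) := by rw [conj_mul, ← mul_assoc l, l2, one_mul]
        _ = _ := by rw [w1, c w (T'.le w0), mul_inv_cancel_right, T'.cz m, mul_assoc, ← mul_assoc l, l2, one_mul, zx]
    have Y := f ▸ P.z.cj w
    refine ⟨B, _, x, _, P.b, H.cj w P.b, fun e => ?_, P.z, Y, mul_mem P.z.m zb, mem_cj.2 ?_⟩
    · rcases (S B x P.b P.z).out (e ▸ Y.c) (.inl Y.v2) with q | q
      exacts [Y.v1 q, T'.z1 (mul_eq_left.1 q)]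
    · convert mul_mem P.z.m zb using 1
      rw [mul_assoc, inv_mul_eq_iff_eq_mul, ← mul_assoc, mul_inv_eq_iff_eq_mul.1 f, mul_assoc, T'.cz w0, mul_assoc, ← mul_assoc z,
        T'.z2, one_mul]

theorem odd_le (a : F A) (b : F B) (T : Zi A t) (X : Zi B x) (xa : x ∈ A) (tb : t ∈ B) {o : G} (m : o ∈ 𝐂 A) (p : Odd (orderOf o)) :
    o ∈ 𝐂 B := by
  have ob : o ∈ MC B B := mem_of_odd p (n := 1) (by simpa [pow_two] using H.sq_in b X (m x xa).symm)
  obtain ⟨z, R, T', l, l0, l2, c⟩ := (H.la b).inn t (MC.self tb) T.v2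
  obtain ⟨i, i0, i1, i2⟩ := T'.sqz l0
  have za := H.inA S a T (i2 ▸ H.sq_in a T ((comm_iff (T'.le i0) c l2).1 i1)) T'.z2
  refine mem_of_odd p (T'.e4 o ob l l0 fun w w0 e => ?_)
  have wn := H.zn a T ((comm_iff (T'.le w0) c l2).1 e)
  have c0 : o * w * o⁻¹ * w⁻¹ ∈ 𝐂 A := by simpa [mul_assoc] using mul_mem m (nc wn (inv_mem m))
  have c4 := T'.p4 _ (mul_mem (T'.nr o (MC.le ob) (m z za).symm w w0) (inv_mem w0))
  rw [show 4 = 2 + 2 from rfl, pow_add, pow_two] at c4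
  rcases (S A t a T).out c0 (S A t a T _ (mul_mem c0 c0) (.inl c4)) with q | q
  · rwa [mul_inv_eq_one, mul_inv_eq_iff_eq_mul] at q
  · obtain ⟨n, e⟩ := p
    have : (w * o⁻¹ * w⁻¹) ^ orderOf o = (o⁻¹ * t) ^ orderOf o := by rw [← q]; congr 1; group
    rw [conj_pow, (Commute.inv_left (m t T.m).symm).mul_pow, inv_pow, pow_orderOf_eq_one, e, pow_succ, pow_mul, pow_two, T.v2] at this
    exact (T.v1 (by simpa using this.symm)).elim

end

theorem main (a : F A) (b : F B) (n : A ≠ B) (p : Zi A v) (c : u ∈ 𝐂 B) (u2 : u * u = 1) (u1 : u ≠ 1) (m : u ∈ 𝐍 A) :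
    ∃ A t g, F A ∧ Zi A t ∧ SK (𝐂 A) t ∧ g * t * g⁻¹ ≠ t ∧ g * t * g⁻¹ * t = t * (g * t * g⁻¹) ∧
      ∀ o ∈ 𝐂 A, Odd (orderOf o) → g⁻¹ * o * g ∈ 𝐂 A := by
  obtain ⟨A, B, x, P⟩ := H.exists_ip a b n p c u2 u1 m
  obtain ⟨x, P, S⟩ := H.small P
  have S (A t) (a : F A) (T : Zi A t) : SK (𝐂 A) t := by
    obtain ⟨g, rfl⟩ := H.tr a P.b
    have k (d) (m : d ∈ 𝐂 (SF.cj g B)) (e : d * d = 1 ∨ d * d = g * x * g⁻¹) : d = 1 ∨ d = g * x * g⁻¹ := by
      rw [show d = g * (g⁻¹ * d * g) * g⁻¹ by group]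
      rcases (H.sk P S).out (cen_cj.1 m) (by
        rw [show g⁻¹ * d * g * (g⁻¹ * d * g) = g⁻¹ * (d * d) * g by group]
        rcases e with e | e <;> simp [e, mul_assoc]) with e | e <;> simp [e]
    exact (k t T.c (.inl T.v2)).resolve_left T.v1 ▸ k
  obtain ⟨A, B, t, x, a, b, n, T, X, xa, tb⟩ := H.symm S P
  obtain ⟨g, rfl⟩ := H.tr b a
  obtain rfl := (S _ _ b (T.cj g) x X.c (.inl X.v2)).resolve_left X.v1
  exact ⟨A, t, g, a, T, S A t a T, fun e => n (H.ti a b T.v2 T.v1 T.c (e ▸ X.c)), T.c _ xa,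
    fun o m p => cen_cj.1 (H.odd_le S a b T X xa tb m p)⟩

end Fam

end Cfsg.Lib.SF
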